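import Mathlib
import Cfsg.Agent.FV.Defs

set_option autoImplicit false

namespace Cfsg.Agent.FV

open Cfsg.Lie Cfsg.Lie.ChevalleyDatum Cfsg.Agent.Chev Matrix

variable {D : ChevalleyDatum} [hG : D.Good]

namespace Iwa

variable {Ω : Type*} [Field Ω] (O : ValuationSubring Ω)

variable (D) in
/-- The elements which have an Iwasawa decomposition. -/
def Z (g : GL D.Idx Ω) : Prop :=
  ∃ w : List (ℕ × O), ∃ b ∈ (D.rootBN Ω).B, g = b * D.wordG Ω (w.map fun p => (p.1, (p.2 : Ω)))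

variable {O}

theorem Z.mul {b g : GL D.Idx Ω} (hb : b ∈ (D.rootBN Ω).B) (h : Z D O g) : Z D O (b * g) :=
  let ⟨w, c, hc, e⟩ := h
  ⟨w, b * c, mul_mem hb hc, by rw [e, mul_assoc]⟩

theorem Z.word {g : GL D.Idx Ω} (h : Z D O g) (w : List (ℕ × O)) :
    Z D O (g * D.wordG Ω (w.map fun p => (p.1, (p.2 : Ω)))) :=
  let ⟨v, c, hc, e⟩ := h
  ⟨v ++ w, c, hc, by rw [e, List.map_append, wordG_append, mul_assoc]⟩

theorem rank_one (i : D.Nd) (t : Ω) : Z D O ((D.rootBN Ω).s i * D.X Ω (D.sr i) t) := by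
  rcases O.mem_or_inv_mem t with h | h
  · refine ⟨[(D.sr i, 1), (D.neg (D.sr i), -1), (D.sr i, 1), (D.sr i, ⟨t, h⟩)], 1, one_mem _, ?_⟩
    simp [rootBN_s, nE, wordG_cons, wordG_nil, mul_assoc]
  by_cases h0 : t = 0
  · refine ⟨[(D.sr i, 1), (D.neg (D.sr i), -1), (D.sr i, 1), (D.sr i, 0)], 1, one_mem _, ?_⟩
    simp [rootBN_s, nE, wordG_cons, wordG_nil, mul_assoc, h0]
  have e := D.X_ng_eq Ω (D.ng (D.sr i)) h0
  rw [ng_ng] at e
  have hs := (D.rootBN Ω).s_mem i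
  have h1 : -t⁻¹ ≠ 0 := neg_ne_zero.2 (inv_ne_zero h0)
  have hn : D.nE Ω (D.ng (D.sr i)) (-t⁻¹) ∈ (D.rootBN Ω).N := D.nE_mem_monomial Ω _ h1
  have h2 := (D.rootBN Ω).conj_X hs (r := D.ng (D.sr i)) (D.X_mem_rootSubgroup Ω _ t⁻¹)
  rw [← rootBN_neg D Ω, (D.rootBN Ω).w_neg hs, ← rootBN_simple D Ω, (D.rootBN Ω).w_s_simple,
    (D.rootBN Ω).neg_neg] at h2
  have h3 : (D.rootBN Ω).s i * D.nE Ω (D.ng (D.sr i)) (-t⁻¹) ∈ (D.rootBN Ω).H :=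
    RootBN.mem_H_of_w_eq_one (mul_mem hs hn) (by
      rw [(D.rootBN Ω).w_mul hs hn, rootBN_w, rootBN_w, rootBN_s, D.wOf_nE Ω _ one_ne_zero,
        D.wOf_nE Ω _ h1, refl_ng_left, refl_mul_self])
  refine ⟨[(D.ng (D.sr i), ⟨t⁻¹, h⟩)], _, mul_mem (RootBN.U_le_B
    (RootBN.X_le_U ((D.rootBN Ω).pos_simple i) h2)) (RootBN.H_le_B h3), ?_⟩
  rw [e, List.map_singleton, wordG_cons, wordG_nil, mul_one]
  simp only [rootBN_neg, rootBN_simple, mul_assoc, inv_mul_cancel_left]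

theorem Z.s (i : D.Nd) {g : GL D.Idx Ω} (h : Z D O g) : Z D O ((D.rootBN Ω).s i * g) := by
  obtain ⟨w, b, hb, rfl⟩ := h
  obtain ⟨u, hu, h, hh, rfl⟩ := RootBN.mem_B.1 hb
  have hs := (D.rootBN Ω).s_mem i
  obtain ⟨y, hy, x, hx, e⟩ := RootBN.factor' hs (RootBN.conj_H_U (inv_mem hh) hu)
  rw [RootBN.Um_s] at hx
  obtain ⟨t, rfl⟩ := (D.mem_rootSubgroup_iff Ω _ _).1 hx
  have h1 := ((rank_one (O := O) i t).word w).mul (mul_mem (RootBN.H_le_B (RootBN.conj_H hs hh))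
    (RootBN.U_le_B (RootBN.conj_Up hs hy)))
  rw [inv_inv, mul_assoc, inv_mul_eq_iff_eq_mul] at e
  rw [e]
  simpa only [rootBN_simple, mul_assoc, inv_mul_cancel_left] using h1

end Iwa

/-- The Iwasawa decomposition. -/
theorem iwasawa {Ω : Type*} [Field Ω] (O : ValuationSubring Ω) {g : GL D.Idx Ω} (hg : g ∈ D.group Ω) :
    ∃ w : List (ℕ × O), ∃ b ∈ D.borelSubgroup Ω, g = b * D.wordG Ω (w.map fun p => (p.1, (p.2 : Ω))) := by
  obtain ⟨u, hu, n, hn, u', hu', rfl⟩ := RootBN.bruhat (R := D.rootBN Ω) hg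
  have h1 : ∀ g, Iwa.Z D O g → Iwa.Z D O (n * g) :=
    RootBN.simple_induction (P := fun n => ∀ g, Iwa.Z D O g → Iwa.Z D O (n * g))
      (fun h hh g hg => hg.mul (RootBN.H_le_B hh))
      (fun n _ i _ ih g hg => by rw [mul_assoc]; exact ih _ (hg.s i)) hn
  have h2 := (h1 u' ⟨[], u', RootBN.U_le_B hu', by rw [List.map_nil, wordG_nil, mul_one]⟩).mul
    (RootBN.U_le_B hu)
  rw [← mul_assoc] at h2
  exact h2

end Cfsg.Agent.FV
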