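import Mathlib
import Cfsg.Agent.FV.Defs

/-! The generic point of a line in a regular direction is conjugate into the Cartan subalgebra. -/

set_option autoImplicit false

namespace Cfsg.Agent.FV

open Cfsg.Lie Cfsg.Lie.ChevalleyDatum Cfsg.Agent.Chev Matrix

universe u

variable {D : ChevalleyDatum}

section Ring
variable {A : Type*} [CommRing A]

variable (D) in
/-- A product of root elements along a list of roots. -/
noncomputable def PR (l : List D.Rt) (c : D.Rt → A) : Matrix D.Idx D.Idx A :=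
  (l.map fun r : D.Rt => D.xR A r (c r)).prod

theorem PR_cons (r : D.Rt) (l : List D.Rt) (c : D.Rt → A) :
    PR D (r :: l) c = D.xR A r (c r) * PR D l c := rfl

theorem map_mulVec' {B : Type*} [CommRing B] (f : A →+* B) (M : Matrix D.Idx D.Idx A) (v : D.Idx → A) :
    f ∘ (M *ᵥ v) = M.map f *ᵥ (f ∘ v) := funext fun a => f.map_mulVec M v a

theorem PR_map {B : Type*} [CommRing B] (f : A →+* B) (l : List D.Rt) (c : D.Rt → A) (v : D.Idx → A) :
    f ∘ (PR D l c *ᵥ v) = PR D l (f ∘ c) *ᵥ (f ∘ v) := by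
  induction l with
  | nil => simp [PR]
  | cons r l ih =>
    rw [PR_cons, PR_cons, ← Matrix.mulVec_mulVec, ← Matrix.mulVec_mulVec, map_mulVec', xR_map, ih]; rfl

variable [hG : D.Good]

theorem PR_zero (l : List D.Rt) : PR D l (0 : D.Rt → A) = 1 := by
  induction l with
  | nil => rfl
  | cons r l ih => rw [PR_cons, ih, Pi.zero_apply, xR_zero, one_mul]

theorem xR_ent {I : Ideal A} {a : A} (ha : a ∈ I) (r : ℕ) (i j : D.Idx) : (D.xR A r a - 1) i j ∈ I := by
  have h := D.xR_map (Ideal.Quotient.mk I) r a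
  rw [Ideal.Quotient.eq_zero_iff_mem.2 ha, xR_zero] at h
  rw [← Ideal.Quotient.eq_zero_iff_mem, Matrix.sub_apply, map_sub, sub_eq_zero]
  refine (congrFun (congrFun h i) j).trans ?_
  rw [Matrix.one_apply, Matrix.one_apply]; split_ifs <;> simp

theorem xR_cong {I : Ideal A} {a : A} (ha : a ∈ I) (r : ℕ) (w : D.Idx → A) (i : D.Idx) :
    (D.xR A r a *ᵥ w - w) i ∈ I := by
  have e : D.xR A r a *ᵥ w - w = (D.xR A r a - 1) *ᵥ w := by rw [Matrix.sub_mulVec, Matrix.one_mulVec]
  rw [e, Matrix.mulVec, dotProduct]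
  exact I.sum_mem fun j _ => I.mul_mem_right _ (xR_ent ha r i j)

theorem xR_fix {I J : Ideal A} (h : ∀ a ∈ I, ∀ b ∈ J, a * b = 0) {a : A} (ha : a ∈ I) (r : ℕ)
    {w : D.Idx → A} (hw : ∀ i, w i ∈ J) : D.xR A r a *ᵥ w = w := by
  have e : D.xR A r a *ᵥ w - w = (D.xR A r a - 1) *ᵥ w := by rw [Matrix.sub_mulVec, Matrix.one_mulVec]
  rw [← sub_eq_zero, e]
  funext i
  rw [Matrix.mulVec, dotProduct]
  exact Finset.sum_eq_zero fun j _ => h _ (xR_ent ha r i j) _ (hw j)

theorem PR_add {I J : Ideal A} (h : ∀ a ∈ I, ∀ b ∈ J, a * b = 0) (hJ : J ≤ I) {c δ : D.Rt → A}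
    (hc : ∀ r, c r ∈ I) (hδ : ∀ r, δ r ∈ J) {t V : D.Idx → A} (ht : hp D t = t)
    (hV : ∀ i, (V - t) i ∈ I) (l : List D.Rt) :
    (∀ i, (PR D l c *ᵥ V - t) i ∈ I) ∧ ∃ S : D.Idx → A, (∀ i, S i ∈ J) ∧
      S = (l.map fun r : D.Rt => (rt D r t * δ r) • D.eN A r).sum ∧
      PR D l (c + δ) *ᵥ V = PR D l c *ᵥ V - S := by
  induction l with
  | nil => exact ⟨by simpa [PR] using hV, 0, fun _ => J.zero_mem, rfl, by simp [PR]⟩
  | cons r l ih =>
    obtain ⟨h1, S, h2, h3, h4⟩ := ih
    have k : ∀ i, ((rt D r t * δ r) • D.eN A r + S) i ∈ J := fun i =>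
      J.add_mem (J.mul_mem_right _ (J.mul_mem_left _ (hδ r))) (h2 i)
    refine ⟨fun i => ?_, _, k, by rw [h3]; rfl, ?_⟩
    · have := I.add_mem (xR_cong (hc r) r (PR D l c *ᵥ V) i) (h1 i)
      rw [PR_cons, ← Matrix.mulVec_mulVec]
      simpa using this
    · rw [PR_cons, PR_cons, Pi.add_apply, ← xR_add, ← Matrix.mulVec_mulVec, ← Matrix.mulVec_mulVec,
        ← Matrix.mulVec_mulVec, h4, ← xR_fix h (hc r) r k, ← Matrix.mulVec_sub]
      congr 1
      generalize PR D l c *ᵥ V = W at h1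
      have e : W - S = t + (W - t - S) := by abel
      have k2 := xR_fix (fun a ha b hb => (mul_comm a b).trans (h b hb a ha)) (hδ r) r
        (w := W - t - S) fun i => I.sub_mem (h1 i) (hJ (h2 i))
      have k3 := xR_mulVec_hp r (δ r) t
      rw [ht] at k3
      rw [e, Matrix.mulVec_add, k2, k3]
      abel

end Ring

variable [hG : D.Good]

open Polynomial in
theorem newton {K : Type*} [Field K] {t : D.Idx → K} (ht0 : Sup D ∅ t) (ht : ∀ r : D.Rt, rt D r t ≠ 0)
    (v : D.Idx → K) (n : ℕ) : ∃ c : D.Rt → K[X], (∀ r, Polynomial.X ∣ c r) ∧ ∀ r : D.Rt,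
      Polynomial.X ^ (n + 1) ∣ (PR D Finset.univ.toList c *ᵥ fun a => C (t a) + Polynomial.X * C (v a)) (Sum.inr r) := by
  induction n with
  | zero =>
    refine ⟨0, fun _ => dvd_zero _, fun r => ?_⟩
    rw [PR_zero, Matrix.one_mulVec, not_not.1 (ht0 r)]
    simp
  | succ n ih =>
    obtain ⟨c, hc, h⟩ := ih
    choose a ha using h
    let π := Ideal.Quotient.mk (Ideal.span {(Polynomial.X : K[X]) ^ (n + 1 + 1)})
    let δ : D.Rt → K[X] := fun r => Polynomial.X ^ (n + 1) * (a r * C (rt D r t)⁻¹)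
    refine ⟨c + δ, fun r => dvd_add (hc r) (dvd_mul_of_dvd_left (dvd_pow_self _ n.succ_ne_zero) _), fun r => ?_⟩
    have h0 : π Polynomial.X * π (Polynomial.X ^ (n + 1)) = 0 := by
      rw [← map_mul, ← pow_succ']; exact Ideal.Quotient.eq_zero_iff_mem.2 (Ideal.mem_span_singleton_self _)
    obtain ⟨-, S, -, e1, e2⟩ := PR_add (I := Ideal.span {π Polynomial.X}) (J := Ideal.span {π (Polynomial.X ^ (n + 1))})
      (c := π ∘ c) (δ := π ∘ δ) (t := (π.comp C) ∘ t) (V := π ∘ fun a => C (t a) + Polynomial.X * C (v a))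
      (fun x hx y hy => by
        obtain ⟨p, rfl⟩ := Ideal.mem_span_singleton.1 hx
        obtain ⟨q, rfl⟩ := Ideal.mem_span_singleton.1 hy
        rw [mul_mul_mul_comm, h0, zero_mul])
      (Ideal.span_singleton_le_span_singleton.2 (map_dvd π (dvd_pow_self _ n.succ_ne_zero)))
      (fun r => Ideal.mem_span_singleton.2 (map_dvd π (hc r)))
      (fun r => Ideal.mem_span_singleton.2 (map_dvd π (dvd_mul_right _ _)))
      (hp_eq_self fun r hr => hr (by rw [Function.comp_apply, not_not.1 (ht0 r), map_zero]))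
      (fun i => Ideal.mem_span_singleton.2 (by simp)) Finset.univ.toList
    have e3 : π ∘ c + π ∘ δ = π ∘ (c + δ) := funext fun r => (map_add π _ _).symm
    rw [e3, ← PR_map, ← PR_map] at e2
    have e4 : S (Sum.inr r) = π (Polynomial.X ^ (n + 1) * a r) := by
      rw [e1, Finset.sum_map_toList, Finset.sum_apply, Finset.sum_eq_single r, rt_map, eN_eq_single]
      · simp only [Pi.smul_apply, Pi.single_eq_same, smul_eq_mul, mul_one, RingHom.comp_apply,
          Function.comp_apply, δ]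
        rw [← map_mul, mul_left_comm, mul_left_comm (C _), ← C_mul, mul_inv_cancel₀ (ht r), C_1, mul_one]
      · intro s _ hs
        simp [eN_eq_single, hs.symm]
      · simp
    rw [← Ideal.mem_span_singleton, ← Ideal.Quotient.eq_zero_iff_mem]
    refine (congrFun e2 (Sum.inr r)).trans ?_
    rw [Pi.sub_apply, e4, Function.comp_apply, ha, sub_self]

theorem coe_prod_X {Ω : Type*} [Field Ω] (l : List D.Rt) (c : D.Rt → Ω) :
    ((l.map fun r : D.Rt => D.X Ω r (c r)).prod).val = PR D l c := by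
  induction l with
  | nil => rfl
  | cons r l ih => rw [List.map_cons, List.prod_cons, Units.val_mul, ih, coe_X_eq_xR, PR_cons]

omit hG in
theorem exists_field_ker {B : Type u} [CommRing B] (P : Ideal B) [P.IsPrime] :
    ∃ (Ω : Type u) (_ : Field Ω) (φ : B →+* Ω), ∀ b, φ b = 0 ↔ b ∈ P := by
  refine ⟨FractionRing (B ⧸ P), inferInstance, (algebraMap (B ⧸ P) _).comp (Ideal.Quotient.mk P), fun b => ?_⟩
  rw [RingHom.comp_apply, map_eq_zero_iff _ (IsFractionRing.injective _ _), Ideal.Quotient.eq_zero_iff_mem]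

/-- The generic point of a line in a regular direction is conjugate into the Borel subalgebra. -/
theorem exists_ext {K : Type u} [Field K] {t : D.Idx → K} (ht0 : Sup D ∅ t) (ht : ∀ r : D.Rt, rt D r t ≠ 0)
    (v : D.Idx → K) : ∃ (Ω : Type u) (_ : Field Ω) (_ : Algebra K Ω) (s : Ω), Transcendental K s ∧
      ∃ g ∈ D.group Ω, Sup D (Pos D) (g.val *ᵥ fun a => algebraMap K Ω (v a) + s * algebraMap K Ω (t a)) := by
  let V : D.Idx → Polynomial K := fun a => Polynomial.C (t a) + Polynomial.X * Polynomial.C (v a)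
  let ι : Polynomial K →+* MvPolynomial D.Rt (Polynomial K) := MvPolynomial.C
  let E : D.Rt → MvPolynomial D.Rt (Polynomial K) := fun r =>
    (PR D Finset.univ.toList MvPolynomial.X *ᵥ (ι ∘ V)) (Sum.inr r)
  have hd : Disjoint (Ideal.span (Set.range E) : Set (MvPolynomial D.Rt (Polynomial K)))
      ((nonZeroDivisors (Polynomial K)).map ι) := by
    refine Set.disjoint_left.2 ?_
    rintro _ hp ⟨p, hp0, rfl⟩
    obtain ⟨c, -, hc⟩ := newton ht0 ht v p.natDegree
    have : Ideal.span (Set.range E) ≤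
        (Ideal.span {Polynomial.X ^ (p.natDegree + 1)}).comap (MvPolynomial.eval c) := by
      refine Ideal.span_le.2 ?_
      rintro _ ⟨r, rfl⟩
      have e := congrFun (PR_map (MvPolynomial.eval c) Finset.univ.toList MvPolynomial.X (ι ∘ V)) (Sum.inr r)
      have e1 : MvPolynomial.eval c ∘ MvPolynomial.X = c := funext fun r => MvPolynomial.eval_X r
      have e2 : MvPolynomial.eval c ∘ ι ∘ V = V := funext fun r => MvPolynomial.eval_C _
      rw [e1, e2] at e
      exact Ideal.mem_span_singleton.2 (e ▸ hc r :)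
    have h2 := Ideal.mem_span_singleton.1 (this hp)
    rw [show MvPolynomial.eval c (ι p) = p from MvPolynomial.eval_C _] at h2
    exact nonZeroDivisors.ne_zero hp0 (Polynomial.eq_zero_of_dvd_of_natDegree_lt h2 (by simp))
  obtain ⟨P, hP, h1, h2⟩ := Ideal.exists_le_prime_disjoint _ _ hd
  obtain ⟨Ω, _, φ, hφ⟩ := exists_field_ker P
  let _ : Algebra K Ω := ((φ.comp ι).comp Polynomial.C).toAlgebra
  have hne : ∀ p : Polynomial K, p ≠ 0 → φ (ι p) ≠ 0 := fun p hp e =>
    Set.disjoint_left.1 h2 ((hφ _).1 e) ⟨p, mem_nonZeroDivisors_of_ne_zero hp, rfl⟩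
  have hae : ∀ p : Polynomial K, Polynomial.aeval (φ (ι Polynomial.X)) p = φ (ι p) := fun p =>
    RingHom.congr_fun (Polynomial.ringHom_ext (f := (Polynomial.aeval (φ (ι Polynomial.X))).toRingHom)
      (g := φ.comp ι) (fun a => Polynomial.aeval_C _ a) (Polynomial.aeval_X _)) p
  refine ⟨Ω, inferInstance, inferInstance, (φ (ι Polynomial.X))⁻¹, fun h => ?_,
    (Finset.univ.toList.map fun r : D.Rt => D.X Ω r ((φ ∘ MvPolynomial.X) r)).prod,
    Subgroup.list_prod_mem _ fun x hx => ?_, ?_⟩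
  · obtain ⟨p, hp, e⟩ := IsAlgebraic.inv_iff.1 h
    exact hne p hp (hae p ▸ e)
  · obtain ⟨r, -, rfl⟩ := List.mem_map.1 hx
    exact D.X_mem_group Ω r _
  · have e : (fun a => algebraMap K Ω (v a) + (φ (ι Polynomial.X))⁻¹ * algebraMap K Ω (t a)) =
        (φ (ι Polynomial.X))⁻¹ • (φ ∘ ι ∘ V) := funext fun a => by
      have := hne _ Polynomial.X_ne_zero
      simp only [Pi.smul_apply, Function.comp_apply, V, map_add, map_mul, smul_eq_mul, mul_add,
        inv_mul_cancel_left₀ this]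
      exact add_comm _ _
    rw [e, Matrix.mulVec_smul, coe_prod_X, ← PR_map]
    exact Sup.smul (fun r hr => absurd ((hφ _).2 (h1 (Ideal.subset_span ⟨r, rfl⟩))) hr) _

end Cfsg.Agent.FV
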