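import Mathlib
import Cfsg.Agent.FV.Newton
import Cfsg.Agent.FV.Iwa

set_option autoImplicit false

namespace Cfsg.Agent.FV

open Cfsg.Lie Cfsg.Lie.ChevalleyDatum Cfsg.Agent.Chev Matrix

variable {D : ChevalleyDatum} [hG : D.Good]

namespace Cover

theorem exists_reg {K : Type*} [Field K] [Infinite K] (h2 : (2 : K) ≠ 0) :
    ∃ t : D.Idx → K, Sup D ∅ t ∧ ∀ r : D.Rt, rt D r t ≠ 0 := by
  obtain ⟨t, ht⟩ := Module.Dual.exists_forall_ne_zero_of_forall_exists (K := K) (M := D.Idx → K)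
    (fun r : D.Rt => ⟨⟨rt D r, rt_add r⟩, rt_smul r⟩) fun r =>
      ⟨Sum.elim (fun i => (D.cw r i : K)) 0, fun h => h2 (by
        have := congrArg (Int.cast : ℤ → K) (D.pairing_self r)
        rw [pairing_eq_dot] at this
        simpa [rt, dotProduct, mul_comm] using this.symm.trans (by simpa [rt, dotProduct, mul_comm] using h))⟩
  exact ⟨hp D t, sup_hp t ∅, ht⟩

theorem exists_val {K Ω : Type*} [Field K] [Field Ω] [Algebra K Ω] {s : Ω} (hs : Transcendental K s) :
    ∃ O : ValuationSubring Ω, (∀ k, algebraMap K Ω k ∈ O) ∧ s ∈ O.nonunits := by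
  obtain ⟨O, h1, h2⟩ := Ideal.image_subset_nonunits_valuationSubring
    (A := (Polynomial.aeval (R := K) s).range.toSubring) (Ideal.span {⟨s, Polynomial.X, Polynomial.aeval_X s⟩}) fun h => by
      obtain ⟨⟨_, p, rfl⟩, e⟩ := (Ideal.span_singleton_eq_top.1 h).exists_right_inv
      have e1 : s * Polynomial.aeval s p = 1 := congrArg Subtype.val e
      have := congrArg (Polynomial.eval 0) (transcendental_iff.1 hs (Polynomial.X * p - 1) (by simp [e1]))
      simp at this
  exact ⟨O, fun k => h1 ⟨Polynomial.C k, by simp⟩, h2 ⟨_, Ideal.subset_span rfl, rfl⟩⟩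

end Cover

open Cover MvPolynomial in
/-- Every vector of the adjoint module is conjugate into the Borel subalgebra. -/
theorem cover {K : Type*} [Field K] [IsAlgClosed K] (h2 : (2 : K) ≠ 0) (v : D.Idx → K) :
    ∃ g ∈ D.group K, Sup D (Pos D) (g.val *ᵥ v) := by
  obtain ⟨t, ht0, ht⟩ := exists_reg (D := D) h2
  obtain ⟨Ω, _, _, s, hs, g, hg, h⟩ := exists_ext ht0 ht v
  obtain ⟨O, hO, hsO⟩ := exists_val hs
  obtain ⟨hsO, hm⟩ := ValuationSubring.mem_nonunits_iff_exists_mem_maximalIdeal.1 hsO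
  obtain ⟨w, b, hb, rfl⟩ := iwasawa O hg
  have h1 := borel_sup (inv_mem hb) h
  rw [mulVec_mulVec, ← Units.val_mul, inv_mul_cancel_left, coe_wordG, wordMat_eq_wordR] at h1
  let ψ : MvPolynomial (Option (Fin w.length)) K →+* O :=
    eval₂Hom ((algebraMap K Ω).codRestrict O hO) fun o => o.elim ⟨s, hsO⟩ fun j => w[j].2
  obtain ⟨φ0⟩ := Lang.exists_point (K := K) (_ ⧸ (IsLocalRing.maximalIdeal O).comap ψ)
  let φ := (φ0.comp (Ideal.Quotient.mkₐ K _)).toRingHom
  have hφ : ∀ p, ψ p ∈ IsLocalRing.maximalIdeal O → φ p = 0 := fun p hp => by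
    change φ0 (Ideal.Quotient.mk _ p) = 0
    rw [Ideal.Quotient.eq_zero_iff_mem.2 (Ideal.mem_comap.2 hp), map_zero]
  let W : List (ℕ × MvPolynomial (Option (Fin w.length)) K) := List.ofFn fun j => (w[j].1, X (some j))
  let V : D.Idx → MvPolynomial (Option (Fin w.length)) K := fun a => C (v a) + X none * C (t a)
  refine ⟨D.wordG K (W.map fun p => (p.1, φ p.2)), list_prod_mem fun x hx => ?_, fun r hr => ?_⟩
  · obtain ⟨p, -, rfl⟩ := List.mem_map.1 hx
    exact D.X_mem_group K _ _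
  by_contra hn
  have e1 : φ ∘ V = v := funext fun a => by
    have : ∀ k, φ (C k) = k := (φ0.comp (Ideal.Quotient.mkₐ K _)).commutes
    simp [V, this, hφ (X none) (by simpa [ψ] using hm)]
  have e2 : (W.map fun p => (p.1, O.subtype.comp ψ p.2)) = w.map fun p => (p.1, (p.2 : Ω)) :=
    List.ext_getElem (by simp [W]) fun i _ _ => by simp [W, ψ]
  have e3 : O.subtype.comp ψ ∘ V = fun a => algebraMap K Ω (v a) + s * algebraMap K Ω (t a) :=
    funext fun a => by simp [V, ψ]
  rw [← e2, ← e3, ← wordR_map] at h1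
  have h3 := not_not.1 (mt (h1 r) hn)
  rw [← RingHom.map_mulVec] at h3
  rw [coe_wordG, wordMat_eq_wordR, ← wordR_map, ← e1, ← RingHom.map_mulVec] at hr
  exact hr (hφ _ (by rw [show ψ _ = 0 from Subtype.ext h3]; exact zero_mem _))

end Cfsg.Agent.FV
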