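import Mathlib
import Cfsg.Agent.FV.Defs

/-!
# The optimal filtration of a nilpotent vector of the adjoint module
-/

set_option autoImplicit false

namespace Cfsg.Agent.FV

open Cfsg.Lie Cfsg.Lie.ChevalleyDatum Cfsg.Agent.Chev Matrix

section Vec

variable {ι F : Type*} [Field F] [Fintype ι] {M : Matrix ι ι F} {v : ι → F} {x y : ι → ℝ}

theorem exists_ne_zero_of_mulVec {a : ι} (h : (M *ᵥ v) a ≠ 0) : ∃ b, M a b ≠ 0 ∧ v b ≠ 0 := by
  rw [Matrix.mulVec, dotProduct] at h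
  obtain ⟨k, -, hk⟩ := Finset.exists_ne_zero_of_sum_ne_zero h
  exact ⟨k, left_ne_zero_of_mul hk, right_ne_zero_of_mul hk⟩

theorem lge_filt (hM : Filt x 0 M) (h : ∀ a, v a ≠ 0 → 1 ≤ x a) : ∀ a, (M *ᵥ v) a ≠ 0 → 1 ≤ x a := fun a ha => by
  obtain ⟨b, h1, h2⟩ := exists_ne_zero_of_mulVec ha
  linarith [hM a b h1, h b h2]

theorem lge_wTr (hM : WTr M x y) (h : ∀ a, v a ≠ 0 → 1 ≤ x a) : ∀ a, (M *ᵥ v) a ≠ 0 → 1 ≤ y a := fun a ha => by
  obtain ⟨b, h1, h2⟩ := exists_ne_zero_of_mulVec ha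
  rw [hM a b h1]
  exact h b h2

end Vec

variable {D : ChevalleyDatum} [hG : D.Good] {K : Type*} [Field K]

theorem filt_XS {f : D.Lat →+ ℝ} {c : GL D.Idx K} (hc : c ∈ D.XS K {r | 0 ≤ f (D.wt r)}) :
    Filt (D.wvec f) 0 c.val := by
  intro a b hab
  have key : ∀ x ∈ AddSubmonoid.closure ((fun r : D.Rt => D.wt r) '' {r | 0 ≤ f (D.wt r)}), 0 ≤ f x := by
    intro x hx
    induction hx using AddSubmonoid.closure_induction with
    | mem x hx => obtain ⟨r, hr, rfl⟩ := hx; exact hr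
    | zero => simp
    | add x y _ _ hx hy => rw [map_add]; exact add_nonneg hx hy
  have := key _ (D.XS_entry K hc hab)
  rwa [map_sub] at this

theorem filt_diag (f : D.Lat →+ ℝ) {c : GL D.Idx K} (hc : c ∈ D.diagonalSubgroup K) :
    Filt (D.wvec f) 0 c.val := fun a b hab =>
  (sub_eq_zero.2 (wTr_of_mem_N (D.diagonal_le_monomial K hc) (f := f) (f' := f)
    (fun r => by rw [wOf_of_mem_H hc]; rfl) a b hab)).ge

theorem filt_TX {f : D.Lat →+ ℝ} {c : GL D.Idx K} (hc : c ∈ TX D K {r | 0 ≤ f (D.wt r)}) :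
    Filt (D.wvec f) 0 c.val := by
  let P : Subgroup (GL D.Idx K) :=
    { carrier := {g | Filt (D.wvec f) 0 g.val ∧ Filt (D.wvec f) 0 g⁻¹.val}
      one_mem' := ⟨Filt.one _, by rw [inv_one]; exact Filt.one _⟩
      mul_mem' := fun {a b} ha hb => ⟨by simpa only [add_zero, Units.val_mul] using ha.1.mul hb.1, by
        simpa only [add_zero, Units.val_mul, _root_.mul_inv_rev] using hb.2.mul ha.2⟩
      inv_mem' := fun {a} ha => ⟨ha.2, by rw [inv_inv]; exact ha.1⟩ }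
  have h : TX D K {r | 0 ≤ f (D.wt r)} ≤ P :=
    sup_le (fun g hg => ⟨filt_XS hg, filt_XS (inv_mem hg)⟩) fun g hg => ⟨filt_diag f hg, filt_diag f (inv_mem hg)⟩
  exact (h hc).1

theorem Lge.TX {f : D.Lat →+ ℝ} {c : GL D.Idx K} (hc : c ∈ TX D K {r | 0 ≤ f (D.wt r)}) {v : D.Idx → K}
    (h : Lge D f v) : Lge D f (c.val *ᵥ v) := lge_filt (filt_TX hc) h

theorem Lge.mono_mulVec {f f' : D.Lat →+ ℝ} {n : GL D.Idx K} (hn : n ∈ D.monomialSubgroup K)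
    (hf : ∀ r : D.Rt, f' (D.wt (D.wOf K n r)) = f (D.wt r)) {v : D.Idx → K} (h : Lge D f v) :
    Lge D f' (n.val *ᵥ v) := lge_wTr (wTr_of_mem_N hn hf) h

theorem exists_dominant (f : D.Lat →+ ℝ) : ∃ n ∈ D.monomialSubgroup K, ∃ f' : D.Lat →+ ℝ,
    (∀ r : D.Rt, f' (D.wt (D.wOf K n r)) = f (D.wt r)) ∧ ∀ i, 0 ≤ f' (D.wt (D.sr i)) := by
  obtain ⟨n, hn, h⟩ := RootBN.exists_good (R := D.rootBN K)
    (Bad := fun n r => f (D.wt ((D.wOf K n)⁻¹ r : D.Rt)) < 0) (fun n hn i r => by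
      have := (D.rootBN K).w_mul ((D.rootBN K).s_mem i) hn
      simp only [rootBN_w] at this ⊢
      rw [this]; simp) (fun n _ r h => by
      rw [rootBN_neg, weyl_ng (inv_mem (D.wOf_mem_weyl K n)), wt_ng, map_neg]; linarith)
  obtain ⟨f', hf'⟩ := exists_comp_weyl (D.wOf_mem_weyl K n) f
  refine ⟨n, hn, f', hf', fun i => ?_⟩
  have := hf' ((D.wOf K n)⁻¹ (D.sr i))
  rw [Equiv.Perm.coe_inv, Equiv.apply_symm_apply] at this
  rw [this]
  exact not_lt.1 (h i)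

/-- The optimal filtration of a nilpotent vector. -/
theorem kempf_vec {b : D.Idx → K} (hb : b ≠ 0) (h0 : hp D b = 0) (hs : Sup D (Pos D) b) :
    ∃ g ∈ D.group K, ∃ f : D.Lat →+ ℝ, (∀ i, 0 ≤ f (D.wt (D.sr i))) ∧ Lge D f (g.val *ᵥ b) ∧
      ∀ y ∈ D.group K, Lge D f (y.val *ᵥ (g.val *ᵥ b)) →
        ∃ u ∈ D.posUnipotent K, ∃ n ∈ D.monomialSubgroup K, ∃ u' ∈ D.posUnipotent K, y = u * n * u' ∧
          ∀ r : D.Rt, f (D.wt (D.wOf K n r)) = f (D.wt r) := by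
  have _ := hb
  let e : EuclideanSpace ℝ D.Idx ≃L[ℝ] (D.Idx → ℝ) := EuclideanSpace.equiv D.Idx ℝ
  let nm : (D.Lat →+ ℝ) → EuclideanSpace ℝ D.Idx := fun f => e.symm (D.wvec f)
  have hnm : ∀ n ∈ D.monomialSubgroup K, ∀ f f' : D.Lat →+ ℝ,
      (∀ r : D.Rt, f' (D.wt (D.wOf K n r)) = f (D.wt r)) → ‖nm f'‖ = ‖nm f‖ := fun n hn f f' h => by
    obtain ⟨σ, hσ⟩ := (wTr_of_mem_N hn h).exists_perm (M' := n⁻¹.val) n.mul_inv
    rw [EuclideanSpace.norm_eq, EuclideanSpace.norm_eq, ← Equiv.sum_comp σ]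
    exact congrArg _ (Finset.sum_congr rfl fun b _ => congrArg (fun t => ‖t‖ ^ 2) (hσ b))
  set A : Set (EuclideanSpace ℝ D.Idx) :=
    ⋃ σ : {σ : Set D.Idx // ∃ g ∈ D.group K, σ = {a | (g.val *ᵥ b) a ≠ 0}},
      e ⁻¹' ((LinearMap.range D.wvec : Set (D.Idx → ℝ)) ∩ ⋂ a ∈ σ.1, {x | 1 ≤ x a}) with hA
  have hAc : IsClosed A := isClosed_iUnion_of_finite fun σ => IsClosed.preimage e.continuous
    ((LinearMap.range D.wvec).closed_of_finiteDimensional.inter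
      (isClosed_biInter fun a _ => isClosed_le continuous_const (continuous_apply a)))
  have memA : ∀ f, ∀ g ∈ D.group K, Lge D f (g.val *ᵥ b) → nm f ∈ A := fun f g hg h =>
    Set.mem_iUnion.2 ⟨⟨_, g, hg, rfl⟩, by
      simp only [nm, Set.mem_preimage, ContinuousLinearEquiv.apply_symm_apply]
      exact ⟨⟨f, rfl⟩, Set.mem_iInter₂.2 h⟩⟩
  obtain ⟨f₀, hf₀⟩ := D.exists_functional fun _ => 1
  have h₀ : Lge D f₀ ((1 : GL D.Idx K).val *ᵥ b) := by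
    rw [Units.val_one, Matrix.one_mulVec]
    rintro (i | r) ha
    · exact absurd (congrFun h0 (Sum.inl i)) ha
    · exact le_map_wt zero_le_one (fun i => (hf₀ i).ge) (hs r ha)
  obtain ⟨x₁, hx₁, hmin⟩ := hAc.exists_infDist_eq_dist ⟨_, memA f₀ 1 (one_mem _) h₀⟩ 0
  have hle : ∀ v ∈ A, ‖x₁‖ ≤ ‖v‖ := fun v hv => by
    have := Metric.infDist_le_dist_of_mem (x := (0 : EuclideanSpace ℝ D.Idx)) hv
    rwa [hmin, dist_zero_left, dist_zero_left] at this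
  obtain ⟨⟨σ, g₁, hg₁, rfl⟩, ⟨f₁, hf₁⟩, h₁⟩ := Set.mem_iUnion.1 hx₁
  have e₁ : nm f₁ = x₁ := by simp only [nm, hf₁, ContinuousLinearEquiv.symm_apply_apply]
  have h₁' : Lge D f₁ (g₁.val *ᵥ b) := by
    rw [← hf₁] at h₁
    exact Set.mem_iInter₂.1 h₁
  obtain ⟨m, hm, f, hf, hd⟩ := exists_dominant (K := K) f₁
  have hg : m * g₁ ∈ D.group K := mul_mem ((D.rootBN K).N_le_G hm) hg₁
  have hL : Lge D f ((m * g₁).val *ᵥ b) := by
    rw [Units.val_mul, ← Matrix.mulVec_mulVec]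
    exact h₁'.mono_mulVec hm hf
  refine ⟨m * g₁, hg, f, hd, hL, fun y hy hyL => ?_⟩
  obtain ⟨u, hu, n, hn, u', hu', rfl⟩ := RootBN.bruhat (R := D.rootBN K) hy
  obtain ⟨f', hf'⟩ := exists_comp_weyl (D.wOf_mem_weyl K n) f
  refine ⟨u, hu, n, hn, u', hu', rfl, ?_⟩
  have L1 : Lge D f ((n * u' * (m * g₁)).val *ᵥ b) := by
    have := lge_filt (filt_zero_of_mem_U hd (inv_mem hu)) hyL
    rw [Units.coeHom_apply, Matrix.mulVec_mulVec, Matrix.mulVec_mulVec, ← Units.val_mul, ← Units.val_mul,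
      show u⁻¹ * (u * n * u') * (m * g₁) = n * u' * (m * g₁) by group] at this
    exact this
  have L2 : Lge D f' ((n * u' * (m * g₁)).val *ᵥ b) := by
    rw [Units.val_mul, Units.val_mul n, ← Matrix.mulVec_mulVec, ← Matrix.mulVec_mulVec]
    exact Lge.mono_mulVec hn hf' (lge_filt (filt_zero_of_mem_U hd hu') hL)
  have L3 : Lge D ((2 : ℝ)⁻¹ • (f + f')) ((n * u' * (m * g₁)).val *ᵥ b) := fun a ha => by
    have := L1 a ha
    have := L2 a ha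
    simp only [AddMonoidHom.smul_apply, AddMonoidHom.add_apply, smul_eq_mul]
    linarith
  have h3 := hle _ (memA _ _ (mul_mem (mul_mem ((D.rootBN K).N_le_G hn) ((D.rootBN K).U_le_G hu')) hg) L3)
  have h1 : ‖nm f‖ = ‖x₁‖ := e₁ ▸ hnm m hm _ _ hf
  have h2 : ‖nm f'‖ = ‖nm f‖ := hnm n hn _ _ hf'
  have h5 : nm f = nm f' := by
    by_contra hne
    have h4 : ‖nm ((2 : ℝ)⁻¹ • (f + f'))‖ < ‖nm f‖ := by
      simp only [nm, map_smul, map_add, smul_add]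
      exact norm_combo_lt_of_ne le_rfl h2.le hne (by norm_num) (by norm_num) (by norm_num)
    linarith
  intro r
  rw [← hf' r]
  exact congrFun (e.symm.injective h5) (Sum.inr (D.wOf K n r))

end Cfsg.Agent.FV
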