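import Mathlib
import Cfsg.Agent.FV.Defs

/-!
# Standard form in the Borel subalgebra and its transporters
-/

set_option autoImplicit false

namespace Cfsg.Agent.FV

open Cfsg.Lie Cfsg.Lie.ChevalleyDatum Cfsg.Agent.Chev Matrix

variable {D : ChevalleyDatum} [hG : D.Good] {K : Type*} [Field K]

theorem X_low {r u : D.Rt} (hr : D.IsPosRoot r) (hu : u ≤ r) (t : K) {v : D.Idx → K} (h : Sup D (Pos D) v) :
    ((D.X K r t).val *ᵥ v) (Sum.inr u) = v (Sum.inr u) - if u = r then rt D r v * t else 0 :=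
  X_mulVec_inr t fun s hs k e => by
    have h1 := congrArg D.ht e
    have h2 := (D.isPos_iff_ht s).1 (h s hs)
    have h3 := (D.isPos_iff_ht r).1 hr
    have h4 := D.ht_le_iff.2 hu
    rw [map_add, map_zsmul, smul_eq_mul] at h1
    nlinarith [Int.natCast_nonneg k]

theorem U_mulVec {u : GL D.Idx K} (hu : u ∈ D.posUnipotent K) {v : D.Idx → K} (h : Sup D (Pos D) v) :
    Sup D (Pos D) (u.val *ᵥ v) ∧ hp D (u.val *ᵥ v) = hp D v := cls_pos.XS (D.posUnipotent_eq_XS K ▸ hu) h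

theorem XS_le_U {S : Set D.Rt} (h : ∀ r ∈ S, D.IsPosRoot (r : D.Rt)) : D.XS K S ≤ D.posUnipotent K :=
  (RootBN.XS_le_U (R := D.rootBN K) h).trans' (by rw [rootBN_XS])

theorem XS_mono' {S T : Set D.Rt} (h : S ⊆ T) : D.XS K S ≤ D.XS K T :=
  Subgroup.closure_mono fun _ hg => hg.imp fun _ hr => ⟨h hr.1, hr.2⟩

omit hG in
theorem Std.pos {v : D.Idx → K} (h : Std D v) : Sup D (Pos D) v := h.mono fun _ h => h.1

theorem Cls.exists_std {Ψ : Set D.Rt} (hΨ : Cls D Ψ) {b : D.Idx → K} (hb : Sup D Ψ b) :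
    ∃ a ∈ D.XS K Ψ, Std D (a.val *ᵥ b) := by
  suffices ∀ m : ℕ, ∃ a ∈ D.XS K Ψ, ∀ s : D.Rt, (s : ℕ) < m → (a.val *ᵥ b) (Sum.inr s) ≠ 0 → rt D s b = 0 by
    obtain ⟨a, ha, h⟩ := this D.nroots
    exact ⟨a, ha, fun s hs => ⟨hΨ.1 s ((hΨ.XS ha hb).1 s hs), (rt_congr (hΨ.XS ha hb).2 s).trans (h s s.2 hs)⟩⟩
  intro m
  induction m with
  | zero => exact ⟨1, one_mem _, fun s hs => absurd hs (Nat.not_lt_zero _)⟩
  | succ m ih =>
    obtain ⟨a, ha, h⟩ := ih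
    by_cases h1 : ∃ r : D.Rt, (r : ℕ) = m ∧ (a.val *ᵥ b) (Sum.inr r) ≠ 0 ∧ rt D r b ≠ 0
    · obtain ⟨r, rfl, h2, h3⟩ := h1
      obtain ⟨h4, h5⟩ := hΨ.XS ha hb
      refine ⟨D.X K r ((a.val *ᵥ b) (Sum.inr r) / rt D r b) * a, mul_mem (D.X_mem_XS K (h4 r h2) _) ha,
        fun s hs h6 => ?_⟩
      rw [Units.val_mul, ← Matrix.mulVec_mulVec, X_low (hΨ.1 r (h4 r h2)) (Nat.le_of_lt_succ hs) _
        (h4.mono hΨ.1), rt_congr h5] at h6
      by_cases e : s = r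
      · rw [if_pos e, mul_div_cancel₀ _ h3, e, sub_self] at h6
        exact absurd rfl h6
      · rw [if_neg e, sub_zero] at h6
        exact h s (lt_of_le_of_ne (Nat.le_of_lt_succ hs) fun e' => e (Fin.ext e')) h6
    · push Not at h1
      exact ⟨a, ha, fun s hs h2 => (Nat.le_of_lt_succ hs).lt_or_eq.elim (h s · h2) (h1 s · h2)⟩

theorem exists_std {b : D.Idx → K} (hb : Sup D (Pos D) b) :
    ∃ u ∈ D.posUnipotent K, Std D (u.val *ᵥ b) := D.posUnipotent_eq_XS K ▸ cls_pos.exists_std hb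

theorem XS_low {r : D.Rt} {g : GL D.Idx K} (hg : g ∈ D.XS K {s | D.IsPosRoot s ∧ r < s}) {v : D.Idx → K}
    (h : Sup D (Pos D) v) : (g.val *ᵥ v) (Sum.inr r) = v (Sum.inr r) := by
  revert v
  refine (D.XS_monoid_induction K (P := fun g => g ∈ D.posUnipotent K ∧ ∀ {v}, Sup D (Pos D) v →
    (g.val *ᵥ v) (Sum.inr r) = v (Sum.inr r)) ⟨one_mem _, fun _ => by simp⟩
    (fun s hs t => ⟨XS_le_U (fun _ h => h.1) (D.X_mem_XS K hs t), fun h => by
      rw [X_low hs.1 hs.2.le t h, if_neg hs.2.ne, sub_zero]⟩)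
    (fun a b ha hb => ⟨mul_mem ha.1 hb.1, fun h => ?_⟩) hg).2
  rw [Units.val_mul, ← Matrix.mulVec_mulVec, ha.2 (U_mulVec hb.1 h).1, hb.2 h]

theorem mem_XS_Zr {u : GL D.Idx K} (hu : u ∈ D.posUnipotent K) {b : D.Idx → K} (hb : Std D b)
    (hb' : Std D (u.val *ᵥ b)) : u ∈ D.XS K (Zr D b) := by
  suffices ∀ k m : ℕ, m + k = D.nroots → ∀ u ∈ D.XS K {s | D.IsPosRoot s ∧ m ≤ s}, Std D (u.val *ᵥ b) →
      u ∈ D.XS K (Zr D b) from this _ 0 (zero_add _) u (by simpa [D.posUnipotent_eq_XS K] using hu) hb'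
  intro k
  induction k with
  | zero =>
    exact fun m hm u hu _ => XS_mono' (fun r hr => absurd hr.2 (by have := r.2; omega)) hu
  | succ k ih =>
    intro m hm u hu h
    let r : D.Rt := ⟨m, by omega⟩
    by_cases hr : D.IsPosRoot r
    · obtain ⟨t, g, hg, rfl⟩ := EntSupp.exists_factor D K r hr hu
      obtain ⟨h1, h2⟩ := U_mulVec (XS_le_U (fun _ h => h.1) hg) hb.pos
      have h3 := Zr_congr (U_mulVec (XS_le_U (fun _ h => h.1) hu) hb.pos).2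
      by_cases h4 : rt D r b = 0
      · refine mul_mem (D.X_mem_XS K (S := Zr D b) (r := r) ⟨hr, h4⟩ t) (ih (m + 1) (by omega) g hg ?_)
        have h5 := ((cls_Zr b).XS (inv_mem (D.X_mem_XS K (S := Zr D b) (r := r) ⟨hr, h4⟩ t)) (by rwa [Std, h3] at h)).1
        rw [Matrix.mulVec_mulVec, ← Units.val_mul, inv_mul_cancel_left] at h5
        rwa [Std, Zr_congr h2]
      · have h5 := not_not.1 (mt (h r) fun e => h4 (h3 ▸ e).2)
        rw [Units.val_mul, ← Matrix.mulVec_mulVec, X_low hr le_rfl t h1, XS_low hg hb.pos,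
          not_not.1 (mt (hb r) fun e => h4 e.2), if_pos rfl, rt_congr h2] at h5
        obtain rfl : t = 0 := by simpa [h4] using h5
        rw [X_zero, one_mul] at h ⊢
        exact ih (m + 1) (by omega) g hg h
    · exact ih (m + 1) (by omega) u (XS_mono' (fun s hs => And.intro hs.1 <| lt_of_le_of_ne hs.2
        fun e' => hr ((show r = s from Fin.ext e') ▸ hs.1)) hu) h

theorem transport {b : D.Idx → K} {y : GL D.Idx K} (hy : y ∈ D.group K) (hb : Std D b) (hb' : Std D (y.val *ᵥ b)) :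
    ∃ u ∈ D.XS K (Zr D (y.val *ᵥ b)), ∃ n ∈ D.monomialSubgroup K, ∃ u' ∈ D.XS K (Zr D b),
      y = u * n * u' ∧ n.val *ᵥ hp D b = hp D (y.val *ᵥ b) := by
  obtain ⟨u, hu, n, hn, u', hu', e⟩ := RootBN.bruhat (R := D.rootBN K) hy
  have e1 : n.val *ᵥ (u'.val *ᵥ b) = (u⁻¹).val *ᵥ (y.val *ᵥ b) := by
    simp only [Matrix.mulVec_mulVec, ← Units.val_mul, e, mul_assoc, inv_mul_cancel_left]
  obtain ⟨h1, h2⟩ := U_mulVec hu' hb.pos
  obtain ⟨h3, h4⟩ := U_mulVec (inv_mem hu) hb'.pos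
  have hΨ : Cls D {r | D.IsPosRoot r ∧ D.IsPosRoot (D.wOf K n r)} := ⟨fun _ h => h.1, fun r hr s hs v k h =>
    ⟨cls_pos.2 r hr.1 s hs.1 v k h, cls_pos.2 _ hr.2 _ hs.2 _ k (by
      simpa using weyl_wt_lin (D.wOf_mem_weyl K n) (a := 1) (b := k + 1) (by simpa using h))⟩⟩
  have h5 : Sup D {r | D.IsPosRoot r ∧ D.IsPosRoot (D.wOf K n r)} (u'.val *ᵥ b) :=
    fun r hr => ⟨h1 r hr, (e1 ▸ h3).of_mono hn r hr⟩
  obtain ⟨a, ha, h6⟩ := hΨ.exists_std h5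
  have h7 := mem_XS_Zr (mul_mem (XS_le_U hΨ.1 ha) hu') hb (by rwa [Units.val_mul, ← Matrix.mulVec_mulVec])
  have h8 : n * a * n⁻¹ ∈ D.posUnipotent K := XS_le_U (S := Pos D) (fun _ h => h) (D.rootBN_XS K _ ▸
    RootBN.conj_XS (R := D.rootBN K) hn (fun _ h => h.2) (D.rootBN_XS K _ ▸ ha))
  have h9 := mem_XS_Zr (mul_mem h8 (inv_mem hu)) hb' (by
    rw [Units.val_mul, ← Matrix.mulVec_mulVec, ← e1, Matrix.mulVec_mulVec, ← Units.val_mul, inv_mul_cancel_right,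
      Units.val_mul, ← Matrix.mulVec_mulVec]
    exact Sup.mono_mulVec hn (Ψ := {r | _ ∧ _}) (fun r hr => ⟨(hΨ.XS ha h5).1 r hr, h6 r hr⟩)
      fun r hr => ⟨hr.1.2, (rt_mono hn r _).2 hr.2.2⟩)
  exact ⟨_, inv_mem h9, n, hn, _, h7, by rw [e]; group, by rw [← h2, ← hp_mono hn, e1, h4]⟩

end Cfsg.Agent.FV
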